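import Cfsg.Agent.Phan.Amalgam
import Cfsg.Agent.H433.PhanFour
import Cfsg.Prelude.Def_PhanSystems

/-!
# Weak Phan systems: the tori match; standard pairs
-/

set_option autoImplicit false

namespace Cfsg.Agent.H433

open Matrix Cfsg
open Cfsg.Agent.LieClassical.HermBasic
open Cfsg.Agent.Phan

variable {F : Type*} [Field F] {q : ℕ}

section
variable [Fintype F]

/-- an element of the unit circle with `c² ≠ 1` -/
theorem exists_circle (hF : Fintype.card F = q ^ 2) : ∃ c : F, c * c ^ q = 1 ∧ c * c ≠ 1 := by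
  classical
  by_contra hcon
  push Not at hcon
  have h3 : (Finset.univ.filter fun y : F => y * y ^ q = 1) ⊆ {1, -1} := by
    intro y hy
    simp only [Finset.mem_filter, Finset.mem_univ, true_and] at hy
    rw [Finset.mem_insert, Finset.mem_singleton]
    exact mul_self_eq_one_iff.1 (hcon y hy)
  have h4 := Finset.card_le_card h3
  have h5 : (Finset.univ.filter fun y : F => y * y ^ q = 1).card = q + 1 := by
    rw [← card_norm_eq_one hF, Nat.card_eq_fintype_card, Fintype.card_subtype]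
  rw [h5] at h4
  have h6 := Finset.card_le_two (a := (1 : F)) (b := -1)
  have := two_le hF
  omega

theorem mat_emb_zero_tor (hF : Fintype.card F = q ^ 2) (c : F) (hc : c * c ^ q = 1) :
    mat (emb hF 0 (by omega : 0 + 2 ≤ 3) (tor hF c hc)) = Matrix.diagonal ![c, c ^ q, 1] := by
  have h0 : ∀ i j : Fin 2, mat (emb hF 0 (by omega : 0 + 2 ≤ 3) (tor hF c hc))
      (sh 0 (by omega : 0 + 2 ≤ 3) i) (sh 0 (by omega : 0 + 2 ≤ 3) j) = mat (tor hF c hc) i j :=
    fun i j => extM_apply (sh_injective 0 _) _ i j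
  have hr : ∀ a : Fin 3, mat (emb hF 0 (by omega : 0 + 2 ≤ 3) (tor hF c hc)) a 2 =
      (1 : Matrix (Fin 3) (Fin 3) F) a 2 := by
    intro a
    refine extM_apply_right (sh_injective 0 _) ?_ _ a
    intro i hi
    have := congrArg Fin.val hi
    rw [sh_val] at this
    simp at this
    omega
  have hl : ∀ b : Fin 3, mat (emb hF 0 (by omega : 0 + 2 ≤ 3) (tor hF c hc)) 2 b =
      (1 : Matrix (Fin 3) (Fin 3) F) 2 b := by
    intro b
    refine extM_apply_left ?_ _ b
    intro i hi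
    have := congrArg Fin.val hi
    rw [sh_val] at this
    simp at this
    omega
  have s0 : (sh 0 (by omega : 0 + 2 ≤ 3) 0 : Fin 3) = 0 := rfl
  have s1 : (sh 0 (by omega : 0 + 2 ≤ 3) 1 : Fin 3) = 1 := rfl
  have h00 := h0 0 0
  have h01 := h0 0 1
  have h10 := h0 1 0
  have h11 := h0 1 1
  rw [s0, mat_tor] at h00
  rw [s0, s1, mat_tor] at h01
  rw [s0, s1, mat_tor] at h10
  rw [s1, mat_tor] at h11
  ext a b
  fin_cases a <;> fin_cases b
  · simpa using h00
  · simpa using h01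
  · simpa using hr 0
  · simpa using h10
  · simpa using h11
  · simpa using hr 1
  · simpa using hl 0
  · simpa using hl 1
  · simpa using hr 2

theorem mat_emb_one_tor (hF : Fintype.card F = q ^ 2) (c : F) (hc : c * c ^ q = 1) :
    mat (emb hF 1 (by omega : 1 + 2 ≤ 3) (tor hF c hc)) = Matrix.diagonal ![1, c, c ^ q] := by
  apply Matrix.ext_of_mulVec_single
  intro j
  rw [emb_one_mulVec (n := 2)]
  funext i
  rw [Matrix.mulVec_diagonal, mat_tor]
  fin_cases i
  · simp
  · simp [dotProduct, Fin.sum_univ_two]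
  · simp [dotProduct, Fin.sum_univ_two]

/-- conjugation by a diagonal element -/
theorem conj_eq_fr (hF : Fintype.card F = q ^ 2) {n : ℕ} (t x : SU n F q) (d : Fin n → F)
    (hd : ∀ i, d i * d i ^ q = 1) (ht : mat t = Matrix.diagonal d) :
    t * x * t⁻¹ = fr hF (RingEquiv.refl F) d hd x := by
  rw [mul_inv_eq_iff_eq_mul]
  apply mat_inj
  rw [mat_mul, mat_mul, mat_fr, ht]
  ext i j
  rw [Matrix.mul_diagonal, Matrix.diagonal_mul, frM_apply]
  have := ne_zero_of_norm (hd j)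
  simp only [RingEquiv.refl_apply]
  field_simp

theorem conj_emb_one (hF : Fintype.card F = q ^ 2) (c : F) (hc : c * c ^ q = 1)
    (hd : ∀ i : Fin 2, (![c ^ q, 1] : Fin 2 → F) i * (![c ^ q, 1] : Fin 2 → F) i ^ q = 1)
    (x : SU 2 F q) :
    emb hF 0 (by omega : 0 + 2 ≤ 3) (tor hF c hc) * emb hF 1 (by omega : 1 + 2 ≤ 3) x *
      (emb hF 0 (by omega : 0 + 2 ≤ 3) (tor hF c hc))⁻¹ =
      emb hF 1 (by omega : 1 + 2 ≤ 3) (fr hF (RingEquiv.refl F) ![c ^ q, 1] hd x) := by
  have hd3 : ∀ i : Fin 3, (![c, c ^ q, 1] : Fin 3 → F) i * (![c, c ^ q, 1] : Fin 3 → F) i ^ q = 1 := by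
    intro i
    fin_cases i
    · exact hc
    · exact hd 0
    · exact hd 1
  rw [conj_eq_fr hF _ _ ![c, c ^ q, 1] hd3 (mat_emb_zero_tor hF c hc), fr_emb]
  have h : (![c, c ^ q, 1] ∘ sh 1 (by omega : 1 + 2 ≤ 3) : Fin 2 → F) = ![c ^ q, 1] := by
    funext i
    fin_cases i <;> rfl
  congr 1
  apply mat_inj
  rw [mat_fr, mat_fr, h]

theorem conj_emb_zero (hF : Fintype.card F = q ^ 2) (c : F) (hc : c * c ^ q = 1)
    (hd : ∀ i : Fin 2, (![1, c] : Fin 2 → F) i * (![1, c] : Fin 2 → F) i ^ q = 1)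
    (x : SU 2 F q) :
    emb hF 1 (by omega : 1 + 2 ≤ 3) (tor hF c hc) * emb hF 0 (by omega : 0 + 2 ≤ 3) x *
      (emb hF 1 (by omega : 1 + 2 ≤ 3) (tor hF c hc))⁻¹ =
      emb hF 0 (by omega : 0 + 2 ≤ 3) (fr hF (RingEquiv.refl F) ![1, c] hd x) := by
  have hd3 : ∀ i : Fin 3, (![1, c, c ^ q] : Fin 3 → F) i * (![1, c, c ^ q] : Fin 3 → F) i ^ q = 1 := by
    intro i
    fin_cases i
    · exact hd 0
    · exact hd 1
    · change c ^ q * (c ^ q) ^ q = 1
      rw [pow_q_pow_q hF, mul_comm, hc]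
  rw [conj_eq_fr hF _ _ ![1, c, c ^ q] hd3 (mat_emb_one_tor hF c hc), fr_emb]
  have h : (![1, c, c ^ q] ∘ sh 0 (by omega : 0 + 2 ≤ 3) : Fin 2 → F) = ![1, c] := by
    funext i
    fin_cases i <;> rfl
  congr 1
  apply mat_inj
  rw [mat_fr, mat_fr, h]

/-- a matrix commuting with `SU 2` is scalar -/
theorem scalar_of_commute (hF : Fintype.card F = q ^ 2) (B : Matrix (Fin 2) (Fin 2) F)
    (hB : ∀ z : SU 2 F q, B * mat z = mat z * B) : B 0 1 = 0 ∧ B 1 0 = 0 ∧ B 0 0 = B 1 1 := by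
  obtain ⟨c, hc, hc2⟩ := exists_circle hF
  have hcq : c ^ q ≠ c := by intro h; rw [h] at hc; exact hc2 hc
  have h1 := hB (tor hF c hc)
  rw [mat_tor] at h1
  have h2 := hB (su2 hF 0 1 (by simp))
  rw [mat_su2, zero_pow_q hF, one_pow] at h2
  have a01 := congrFun (congrFun h1 0) 1
  have a10 := congrFun (congrFun h1 1) 0
  simp [Matrix.mul_apply, Fin.sum_univ_two] at a01 a10
  have b00 := congrFun (congrFun h2 0) 1
  simp [Matrix.mul_apply, Fin.sum_univ_two] at b00
  have e01 : B 0 1 = 0 := by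
    have : (c ^ q - c) * B 0 1 = 0 := by linear_combination a01
    exact (mul_eq_zero.1 this).resolve_left (sub_ne_zero.2 hcq)
  have e10 : B 1 0 = 0 := by
    have : (c - c ^ q) * B 1 0 = 0 := by linear_combination a10
    exact (mul_eq_zero.1 this).resolve_left (sub_ne_zero.2 (Ne.symm hcq))
  exact ⟨e01, e10, b00⟩

/-- **The tori match.** -/
theorem tor_compat (hF : Fintype.card F = q ^ 2) {H : Type*} [Group H] (ψ₁ ψ₂ : SU 3 F q →* H)
    (h1 : Function.Injective (ψ₁.comp (emb hF 1 (by omega : 1 + 2 ≤ 3))))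
    (h2 : Function.Injective (ψ₂.comp (emb hF 0 (by omega : 0 + 2 ≤ 3))))
    (hr : (ψ₁.comp (emb hF 1 (by omega : 1 + 2 ≤ 3))).range =
      (ψ₂.comp (emb hF 0 (by omega : 0 + 2 ≤ 3))).range)
    (hc : ∀ x y : SU 2 F q, Commute (ψ₁ (emb hF 0 (by omega : 0 + 2 ≤ 3) x))
      (ψ₂ (emb hF 1 (by omega : 1 + 2 ≤ 3) y))) (y : SU 2 F q) (hy : IsDiag y) :
    ∃ z : SU 2 F q, IsDiag z ∧ ψ₁ (emb hF 1 (by omega : 1 + 2 ≤ 3) y) =
      ψ₂ (emb hF 0 (by omega : 0 + 2 ≤ 3) z) := by
  classical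
  set ρ₁ : SU 2 F q →* H := ψ₁.comp (emb hF 1 (by omega : 1 + 2 ≤ 3)) with hρ₁
  set ρ₂ : SU 2 F q →* H := ψ₂.comp (emb hF 0 (by omega : 0 + 2 ≤ 3)) with hρ₂
  set δ : SU 2 F q ≃* SU 2 F q := (MonoidHom.ofInjective h1).trans
    ((MulEquiv.subgroupCongr hr).trans (MonoidHom.ofInjective h2).symm) with hδ
  have hδρ : ∀ x, ρ₂ (δ x) = ρ₁ x := by
    intro x
    have h3 : ∀ y : ρ₂.range, ρ₂ ((MonoidHom.ofInjective h2).symm y) = y := by
      intro y
      have := (MonoidHom.ofInjective h2).apply_symm_apply y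
      exact congrArg Subtype.val this
    change ρ₂ ((MonoidHom.ofInjective h2).symm
      ((MulEquiv.subgroupCongr hr) (MonoidHom.ofInjective h1 x))) = ρ₁ x
    rw [h3]
    rfl
  obtain ⟨D, E, τ, hDE, hED, hform⟩ := aut_su2 hF δ
  obtain ⟨c, hcc, hc2⟩ := exists_circle hF
  have hc1 : c ≠ 1 := by rintro rfl; exact hc2 (one_mul 1)
  have hc0 : c ≠ 0 := ne_zero_of_norm hcc
  have hccq : c ^ q * (c ^ q) ^ q = 1 := by rw [pow_q_pow_q hF, mul_comm, hcc]
  have hd₁ : ∀ i : Fin 2, (![c ^ q, 1] : Fin 2 → F) i * (![c ^ q, 1] : Fin 2 → F) i ^ q = 1 := by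
    intro i
    fin_cases i
    · exact hccq
    · simp
  have hd₂ : ∀ i : Fin 2, (![1, c] : Fin 2 → F) i * (![1, c] : Fin 2 → F) i ^ q = 1 := by
    intro i
    fin_cases i
    · simp
    · exact hcc
  set a := ψ₁ (emb hF 0 (by omega : 0 + 2 ≤ 3) (tor hF c hcc)) with ha
  set b := ψ₂ (emb hF 1 (by omega : 1 + 2 ≤ 3) (tor hF c hcc)) with hb
  set κ₁ := fr hF (RingEquiv.refl F) ![c ^ q, 1] hd₁ with hκ₁
  set κ₂ := fr hF (RingEquiv.refl F) ![1, c] hd₂ with hκ₂
  have hab : a * b = b * a := (hc _ _).eq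
  have ha' : ∀ x, a * ρ₁ x * a⁻¹ = ρ₁ (κ₁ x) := by
    intro x
    have := congrArg ψ₁ (conj_emb_one hF c hcc hd₁ x)
    rw [map_mul, map_mul, map_inv] at this
    exact this
  have hb' : ∀ x, b * ρ₂ x * b⁻¹ = ρ₂ (κ₂ x) := by
    intro x
    have := congrArg ψ₂ (conj_emb_zero hF c hcc hd₂ x)
    rw [map_mul, map_mul, map_inv] at this
    exact this
  -- the relation between the automorphisms
  have hrel : ∀ x, κ₂ (δ (κ₁ x)) = δ (κ₁ (δ.symm (κ₂ (δ x)))) := by
    intro x
    apply h2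
    change ρ₂ _ = ρ₂ _
    rw [← hb', hδρ, hδρ, ← ha', ← ha', ← hδρ, ← hδρ (δ.symm _), MulEquiv.apply_symm_apply, ← hb']
    have h3 : b⁻¹ * a⁻¹ = a⁻¹ * b⁻¹ := by
      rw [← _root_.mul_inv_rev, ← _root_.mul_inv_rev, hab]
    calc b * (a * ρ₂ (δ x) * a⁻¹) * b⁻¹ = (b * a) * ρ₂ (δ x) * (a⁻¹ * b⁻¹) := by group
      _ = (a * b) * ρ₂ (δ x) * (b⁻¹ * a⁻¹) := by rw [hab, h3]
      _ = _ := by group
  -- the matrices
  have hκ₁m : ∀ x, mat (κ₁ x) = Matrix.diagonal ![c ^ q, 1] * mat x *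
      Matrix.diagonal ![c, 1] := by
    intro x
    rw [hκ₁, mat_fr]
    ext i j
    rw [frM_apply, Matrix.mul_diagonal, Matrix.diagonal_mul]
    congr 1
    have hinv : (c ^ q)⁻¹ = c := by
      rw [inv_eq_iff_eq_inv, ← eq_inv_of_mul_eq_one_right hcc]
    fin_cases j
    · exact hinv
    · simp
  have hκ₂m : ∀ x, mat (κ₂ x) = Matrix.diagonal ![1, c] * mat x *
      Matrix.diagonal ![1, c⁻¹] := by
    intro x
    rw [hκ₂, mat_fr]
    ext i j
    rw [frM_apply, Matrix.mul_diagonal, Matrix.diagonal_mul]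
    congr 1
    fin_cases j
    · simp
    · simp
  have hτmul : ∀ X Y : Matrix (Fin 2) (Fin 2) F, (X * Y).map τ = X.map τ * Y.map τ := by
    intro X Y
    change (X * Y).map (τ : F →+* F) = X.map (τ : F →+* F) * Y.map (τ : F →+* F)
    rw [Matrix.map_mul]
  set A := D * (Matrix.diagonal ![c ^ q, 1]).map τ * E with hA
  set A' := D * (Matrix.diagonal ![c, 1]).map τ * E with hA'
  have hdd : Matrix.diagonal ![c ^ q, 1] * Matrix.diagonal ![c, 1] =
      (1 : Matrix (Fin 2) (Fin 2) F) := by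
    rw [Matrix.diagonal_mul_diagonal, ← Matrix.diagonal_one]
    congr 1
    funext i
    fin_cases i
    · change c ^ q * c = 1
      rw [mul_comm, hcc]
    · simp
  have hdd' : Matrix.diagonal ![c, 1] * Matrix.diagonal ![c ^ q, 1] =
      (1 : Matrix (Fin 2) (Fin 2) F) := by
    rw [Matrix.diagonal_mul_diagonal, ← Matrix.diagonal_one]
    congr 1
    funext i
    fin_cases i
    · exact hcc
    · simp
  have hmap1 : (1 : Matrix (Fin 2) (Fin 2) F).map τ = 1 :=
    Matrix.map_one _ (map_zero τ) (map_one τ)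
  have hAA' : A * A' = 1 := by
    calc A * A' = D * (Matrix.diagonal ![c ^ q, 1]).map τ * (E * D) *
        (Matrix.diagonal ![c, 1]).map τ * E := by
          rw [hA, hA']; simp only [Matrix.mul_assoc]
      _ = D * ((Matrix.diagonal ![c ^ q, 1]).map τ * (Matrix.diagonal ![c, 1]).map τ) * E := by
          rw [hED]; simp only [Matrix.mul_assoc, Matrix.one_mul]
      _ = 1 := by rw [← hτmul, hdd, hmap1, Matrix.mul_one, hDE]
  have hA'A : A' * A = 1 := by
    calc A' * A = D * (Matrix.diagonal ![c, 1]).map τ * (E * D) *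
        (Matrix.diagonal ![c ^ q, 1]).map τ * E := by
          rw [hA, hA']; simp only [Matrix.mul_assoc]
      _ = D * ((Matrix.diagonal ![c, 1]).map τ * (Matrix.diagonal ![c ^ q, 1]).map τ) * E := by
          rw [hED]; simp only [Matrix.mul_assoc, Matrix.one_mul]
      _ = 1 := by rw [← hτmul, hdd', hmap1, Matrix.mul_one, hDE]
  -- the action of `δ κ₁ δ⁻¹`
  have hact : ∀ z, mat (δ (κ₁ (δ.symm z))) = A * mat z * A' := by
    intro z
    have hz := hform (δ.symm z)
    rw [MulEquiv.apply_symm_apply] at hz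
    rw [hform, hκ₁m, hτmul, hτmul, hz, hA, hA']
    calc D * ((Matrix.diagonal ![c ^ q, 1]).map τ * (mat (δ.symm z)).map τ *
        (Matrix.diagonal ![c, 1]).map τ) * E
        = D * (Matrix.diagonal ![c ^ q, 1]).map τ * (1 * (mat (δ.symm z)).map τ * 1) *
          (Matrix.diagonal ![c, 1]).map τ * E := by
            simp only [Matrix.mul_assoc, Matrix.one_mul]
      _ = _ := by rw [← hED]; simp only [Matrix.mul_assoc]
  -- hence `A` is diagonal
  set e₂ := (Matrix.diagonal ![1, c] : Matrix (Fin 2) (Fin 2) F) with he₂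
  set e₂' := (Matrix.diagonal ![1, c⁻¹] : Matrix (Fin 2) (Fin 2) F) with he₂'
  have hee : e₂ * e₂' = 1 := by
    rw [he₂, he₂', Matrix.diagonal_mul_diagonal, ← Matrix.diagonal_one]
    congr 1
    funext i
    fin_cases i
    · simp
    · simp [hc0]
  have hee' : e₂' * e₂ = 1 := by
    rw [he₂, he₂', Matrix.diagonal_mul_diagonal, ← Matrix.diagonal_one]
    congr 1
    funext i
    fin_cases i
    · simp
    · simp [hc0]
  have hcomm : ∀ z : SU 2 F q, (A' * e₂' * A * e₂) * mat z = mat z * (A' * e₂' * A * e₂) := by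
    intro z
    have h3 := hrel (δ.symm z)
    rw [MulEquiv.apply_symm_apply] at h3
    have h4 := congrArg mat h3
    rw [hκ₂m, hact, hact, hκ₂m] at h4
    -- `e₂ (A z A') e₂' = A (e₂ z e₂') A'`
    calc (A' * e₂' * A * e₂) * mat z
        = A' * e₂' * (A * (e₂ * mat z * e₂') * A') * A * e₂ := by
          calc (A' * e₂' * A * e₂) * mat z = A' * e₂' * A * e₂ * mat z * (1 * 1) := by
                rw [Matrix.mul_one, Matrix.mul_one]
            _ = A' * e₂' * A * e₂ * mat z * (e₂' * e₂ * 1) := by rw [hee']; 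
            _ = A' * e₂' * A * e₂ * mat z * (e₂' * (A' * A) * e₂) := by
                rw [hA'A]; simp only [Matrix.mul_one]
            _ = _ := by simp only [Matrix.mul_assoc]
      _ = A' * e₂' * (e₂ * (A * mat z * A') * e₂') * A * e₂ := by rw [h4]
      _ = A' * (e₂' * e₂) * A * mat z * A' * e₂' * A * e₂ := by simp only [Matrix.mul_assoc]
      _ = A' * A * mat z * A' * e₂' * A * e₂ := by rw [hee', Matrix.mul_one]
      _ = _ := by rw [hA'A, Matrix.one_mul]; simp only [Matrix.mul_assoc]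
  obtain ⟨s01, s10, s00⟩ := scalar_of_commute hF _ hcomm
  set μ := (A' * e₂' * A * e₂) 0 0 with hμ
  have hscal : A' * e₂' * A * e₂ = Matrix.diagonal ![μ, μ] := by
    ext i j
    fin_cases i <;> fin_cases j
    · simp [hμ]
    · simpa using s01
    · simpa using s10
    · simpa using s00.symm
  have hAe : A * e₂ = e₂ * A * Matrix.diagonal ![μ, μ] := by
    rw [← hscal]
    calc A * e₂ = 1 * 1 * A * e₂ := by rw [Matrix.one_mul, Matrix.one_mul]
      _ = e₂ * 1 * e₂' * A * e₂ := by rw [Matrix.mul_one e₂, hee, Matrix.one_mul]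
      _ = e₂ * (A * A') * e₂' * A * e₂ := by rw [hAA']
      _ = _ := by simp only [Matrix.mul_assoc]
  have kk : ∀ i j, A i j * (![1, c] : Fin 2 → F) j =
      ((![1, c] : Fin 2 → F) i * A i j) * (![μ, μ] : Fin 2 → F) j := by
    intro i j
    have := congrFun (congrFun hAe i) j
    rwa [he₂, Matrix.mul_diagonal, Matrix.mul_diagonal, Matrix.diagonal_mul] at this
  have k00 : A 0 0 * 1 = (1 * A 0 0) * μ := kk 0 0
  have k01 : A 0 1 * c = (1 * A 0 1) * μ := kk 0 1
  have k10 : A 1 0 * 1 = (c * A 1 0) * μ := kk 1 0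
  have k11 : A 1 1 * c = (c * A 1 1) * μ := kk 1 1
  have hAdet : A 0 0 ≠ 0 ∨ A 0 1 ≠ 0 := by
    by_contra h
    push Not at h
    have h3 := congrFun (congrFun hAA' 0) 0
    rw [Matrix.mul_apply, Fin.sum_univ_two, h.1, h.2] at h3
    simp at h3
  have hAdet' : A 1 0 ≠ 0 ∨ A 1 1 ≠ 0 := by
    by_contra h
    push Not at h
    have h3 := congrFun (congrFun hAA' 1) 1
    rw [Matrix.mul_apply, Fin.sum_univ_two, h.1, h.2] at h3
    simp at h3
  have hAd : A 0 1 = 0 ∧ A 1 0 = 0 := by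
    by_cases hμ1 : μ = 1
    · rw [hμ1] at k01 k10
      constructor
      · have : A 0 1 * (c - 1) = 0 := by linear_combination k01
        exact (mul_eq_zero.1 this).resolve_right (sub_ne_zero.2 hc1)
      · have : A 1 0 * (c - 1) = 0 := by linear_combination -k10
        exact (mul_eq_zero.1 this).resolve_right (sub_ne_zero.2 hc1)
    · exfalso
      have a00 : A 0 0 = 0 := by
        have : A 0 0 * (μ - 1) = 0 := by linear_combination -k00
        exact (mul_eq_zero.1 this).resolve_right (sub_ne_zero.2 hμ1)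
      have a11 : A 1 1 = 0 := by
        have : A 1 1 * (c * (μ - 1)) = 0 := by linear_combination -k11
        exact (mul_eq_zero.1 this).resolve_right (mul_ne_zero hc0 (sub_ne_zero.2 hμ1))
      have a01 : A 0 1 ≠ 0 := hAdet.resolve_left (not_not.2 a00)
      have a10 : A 1 0 ≠ 0 := hAdet'.resolve_right (not_not.2 a11)
      have m1 : μ = c := by
        have : A 0 1 * (μ - c) = 0 := by linear_combination -k01
        exact sub_eq_zero.1 ((mul_eq_zero.1 this).resolve_left a01)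
      have m2 : c * μ = 1 := by
        have : A 1 0 * (c * μ - 1) = 0 := by linear_combination -k10
        exact sub_eq_zero.1 ((mul_eq_zero.1 this).resolve_left a10)
      rw [m1] at m2
      exact hc2 m2
  -- entries of `D`, `E`
  have hAent : ∀ i j, A i j = D i 0 * τ (c ^ q) * E 0 j + D i 1 * E 1 j := by
    intro i j
    rw [hA, Matrix.mul_apply, Fin.sum_univ_two, Matrix.mul_apply, Matrix.mul_apply,
      Fin.sum_univ_two, Fin.sum_univ_two]
    simp
  have hDEent : ∀ i j, D i 0 * E 0 j + D i 1 * E 1 j = (1 : Matrix (Fin 2) (Fin 2) F) i j := by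
    intro i j
    rw [← hDE, Matrix.mul_apply, Fin.sum_univ_two]
  have hτc : τ (c ^ q) ≠ 1 := by
    intro h
    have h3 : c ^ q = 1 := τ.injective (by rw [h, map_one])
    rw [h3, mul_one] at hcc
    exact hc1 hcc
  have hd01 : D 0 0 * E 0 1 = 0 := by
    have h3 := hAent 0 1
    have h4 := hDEent 0 1
    rw [hAd.1] at h3
    rw [Matrix.one_apply_ne (by decide)] at h4
    have : (D 0 0 * E 0 1) * (τ (c ^ q) - 1) = 0 := by linear_combination -h3 - h4
    exact (mul_eq_zero.1 this).resolve_right (sub_ne_zero.2 hτc)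
  have hd10 : D 1 0 * E 0 0 = 0 := by
    have h3 := hAent 1 0
    have h4 := hDEent 1 0
    rw [hAd.2] at h3
    rw [Matrix.one_apply_ne (by decide)] at h4
    have : (D 1 0 * E 0 0) * (τ (c ^ q) - 1) = 0 := by linear_combination -h3 - h4
    exact (mul_eq_zero.1 this).resolve_right (sub_ne_zero.2 hτc)
  have hyent : ∀ i j, mat (δ y) i j = D i 0 * τ (mat y 0 0) * E 0 j +
      D i 1 * τ (mat y 1 1) * E 1 j := by
    intro i j
    rw [hform, Matrix.mul_apply, Fin.sum_univ_two, Matrix.mul_apply, Matrix.mul_apply,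
      Fin.sum_univ_two, Fin.sum_univ_two]
    simp only [Matrix.map_apply]
    rw [hy.1, hy.2, map_zero]
    ring
  refine ⟨δ y, ⟨?_, ?_⟩, (hδρ y).symm⟩
  · rw [hyent]
    have h4 := hDEent 0 1
    rw [Matrix.one_apply_ne (by decide)] at h4
    linear_combination (τ (mat y 0 0) - τ (mat y 1 1)) * hd01 + τ (mat y 1 1) * h4
  · rw [hyent]
    have h4 := hDEent 1 0
    rw [Matrix.one_apply_ne (by decide)] at h4
    linear_combination (τ (mat y 0 0) - τ (mat y 1 1)) * hd10 + τ (mat y 1 1) * h4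

end

end Cfsg.Agent.H433
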