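import Cfsg.Agent.Phan.Recog
import Cfsg.Agent.H433.WeakPhan

/-!
# Block subgroups and standard pairs
-/

set_option autoImplicit false

namespace Cfsg.Agent.H433

open Matrix Cfsg
open Cfsg.Agent.LieClassical.HermBasic
open Cfsg.Agent.Phan

variable {F : Type*} [Field F] {q : ℕ} [Fintype F]

/-- an element of `SU n` whose matrix is an extension -/
theorem exists_ext_eq (hF : Fintype.card F = q ^ 2) {m n : ℕ} {e : Fin m → Fin n}
    (he : Function.Injective e) (A : SU n F q) (B : Matrix (Fin m) (Fin m) F)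
    (h : mat A = extM e B) : ∃ x : SU m F q, ext hF e he x = A := by
  refine ⟨mk B ?_ ?_, ?_⟩
  · rw [← extM_det he, ← h, mat_det]
  · intro u v
    rw [← herm_inc he (B *ᵥ u), ← extM_inc he, ← extM_inc he, ← h, mat_isom, herm_inc he]
  · apply mat_inj
    rw [mat_ext, mat_mk, h]

omit [Fintype F] in
/-- the matrix of an element which is trivial off the image of `e` -/
theorem eq_extM_of_off {n m : ℕ} {e : Fin m → Fin n} (he : Function.Injective e)
    (A : Matrix (Fin n) (Fin n) F)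
    (h : ∀ k : Fin n, (∀ i, k ≠ e i) → A k k = 1 ∧ ∀ l : Fin n, l ≠ k → A k l = 0 ∧ A l k = 0) :
    A = extM e (A.submatrix e e) := by
  ext a b
  by_cases ha : ∀ i, a ≠ e i
  · rw [extM_apply_left ha, Matrix.one_apply]
    by_cases hab : a = b
    · rw [if_pos hab, ← hab]
      exact (h a ha).1
    · rw [if_neg hab]
      exact ((h a ha).2 b (Ne.symm hab)).1
  by_cases hb : ∀ i, b ≠ e i
  · rw [extM_apply_right he hb, Matrix.one_apply]
    by_cases hab : a = b
    · rw [if_pos hab, hab]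
      exact (h b hb).1
    · rw [if_neg hab]
      exact ((h b hb).2 a hab).2
  push Not at ha hb
  obtain ⟨i, rfl⟩ := ha
  obtain ⟨j, rfl⟩ := hb
  rw [extM_apply he]
  rfl

theorem suBlock_eq_range (hF : Fintype.card F = q ^ 2) {n m : ℕ} {e : Fin m → Fin n}
    (he : Function.Injective e) (s : Set (Fin n)) (hs : ∀ k, k ∉ s ↔ ∀ i, k ≠ e i) :
    suBlock n F q s = (ext hF e he).range := by
  apply le_antisymm
  · rw [suBlock, Subgroup.closure_le]
    intro A hA
    have h : mat A = extM e ((mat A).submatrix e e) := by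
      apply eq_extM_of_off he
      intro k hk
      exact hA k ((hs k).2 hk)
    obtain ⟨x, hx⟩ := exists_ext_eq hF he A _ h
    exact ⟨x, hx⟩
  · rintro _ ⟨x, rfl⟩
    apply Subgroup.subset_closure
    intro k hk
    have hk' := (hs k).1 hk
    change mat (ext hF e he x) k k = 1 ∧ ∀ l : Fin n, l ≠ k →
      mat (ext hF e he x) k l = 0 ∧ mat (ext hF e he x) l k = 0
    rw [mat_ext]
    refine ⟨?_, ?_⟩
    · rw [extM_apply_left hk', Matrix.one_apply_eq]
    · intro l hl
      rw [extM_apply_left hk', extM_apply_right he hk', Matrix.one_apply_ne hl,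
        Matrix.one_apply_ne (Ne.symm hl)]
      exact ⟨rfl, rfl⟩

theorem off_zero (h : 0 + 2 ≤ 3) (k : Fin 3) :
    k ∉ ({0, 1} : Set (Fin 3)) ↔ ∀ i : Fin 2, k ≠ sh 0 h i := by
  have : ∀ k : Fin 3, (¬ (k = 0 ∨ k = 1)) ↔ ∀ i : Fin 2, k ≠ sh 0 (by decide : 0 + 2 ≤ 3) i := by
    decide
  exact this k

theorem off_one (h : 1 + 2 ≤ 3) (k : Fin 3) :
    k ∉ ({1, 2} : Set (Fin 3)) ↔ ∀ i : Fin 2, k ≠ sh 1 h i := by
  have : ∀ k : Fin 3, (¬ (k = 1 ∨ k = 2)) ↔ ∀ i : Fin 2, k ≠ sh 1 (by decide : 1 + 2 ≤ 3) i := by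
    decide
  exact this k

theorem suBlock_zero (hF : Fintype.card F = q ^ 2) :
    suBlock 3 F q {0, 1} = (emb hF 0 (by omega : 0 + 2 ≤ 3) : SU 2 F q →* SU 3 F q).range := by
  exact suBlock_eq_range hF _ _ (off_zero _)

theorem suBlock_one (hF : Fintype.card F = q ^ 2) :
    suBlock 3 F q {1, 2} = (emb hF 1 (by omega : 1 + 2 ≤ 3) : SU 2 F q →* SU 3 F q).range := by
  exact suBlock_eq_range hF _ _ (off_one _)

theorem inj_of_ker (hF : Fintype.card F = q ^ 2) {H : Type*} [Group H] {ψ : SU 3 F q →* H}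
    (h : ψ.ker ≤ Subgroup.center (SU 3 F q)) {a : ℕ} (ha : a + 2 ≤ 3) :
    Function.Injective (ψ.comp (emb hF a ha)) := by
  rw [injective_iff_map_eq_one]
  intro x hx
  have h1 : emb hF a ha x ∈ Subgroup.center (SU 3 F q) := h hx
  have h2 : emb hF a ha x = 1 := by
    obtain ⟨i, hi⟩ : ∃ i : Fin 3, (i : ℕ) < a ∨ a + 2 ≤ i := by
      by_cases h0 : a = 0
      · exact ⟨2, Or.inr (by rw [h0]; decide)⟩
      · exact ⟨0, Or.inl (by simp; omega)⟩
    exact eq_one_of_center_fix hF (n := 1) (fun g => Subgroup.mem_center_iff.1 h1 g)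
      (pe 3 F q i) (emb_smul_pe hF a ha x hi)
  exact emb_injective hF a ha (by rw [h2, map_one])

/-- A standard pair is given by a homomorphism of `SU 3` with central kernel. -/
theorem exists_of_pair (hF : Fintype.card F = q ^ 2) {G : Type*} [Group G] {V A B : Subgroup G}
    (h : IsStandardUnitaryPair V A B F q) : ∃ ψ : SU 3 F q →* G,
      ψ.ker ≤ Subgroup.center (SU 3 F q) ∧ ψ.range = V ∧
      (ψ.comp (emb hF 0 (by omega : 0 + 2 ≤ 3))).range = A ∧
      (ψ.comp (emb hF 1 (by omega : 1 + 2 ≤ 3))).range = B := by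
  rcases h with ⟨ψ, h1, h2⟩ | ⟨ψ, h1, h2⟩
  · refine ⟨V.subtype.comp ψ.toMonoidHom, ?_, ?_, ?_, ?_⟩
    · intro x hx
      have h3 : ψ x = 1 := by
        apply Subtype.ext
        exact hx
      have h4 : x = 1 := by
        apply ψ.injective
        rw [h3, map_one]
      rw [h4]
      exact Subgroup.one_mem _
    · ext x
      constructor
      · rintro ⟨y, rfl⟩
        exact (ψ y).2
      · intro hx
        exact ⟨ψ.symm ⟨x, hx⟩, by
          change ((ψ (ψ.symm ⟨x, hx⟩) : V) : G) = x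
          rw [MulEquiv.apply_symm_apply]⟩
    · rw [← h1, suBlock_zero hF, MonoidHom.range_comp]
    · rw [← h2, suBlock_one hF, MonoidHom.range_comp]
  · refine ⟨V.subtype.comp (ψ.toMonoidHom.comp
      (QuotientGroup.mk' (Subgroup.center (SU 3 F q)))), ?_, ?_, ?_, ?_⟩
    · intro x hx
      have h3 : ψ (QuotientGroup.mk' (Subgroup.center (SU 3 F q)) x) = 1 := by
        apply Subtype.ext
        exact hx
      have h4 : QuotientGroup.mk' (Subgroup.center (SU 3 F q)) x = 1 := by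
        apply ψ.injective
        rw [h3, map_one]
      have h5 : x ∈ (QuotientGroup.mk' (Subgroup.center (SU 3 F q))).ker := h4
      rwa [QuotientGroup.ker_mk'] at h5
    · ext x
      constructor
      · rintro ⟨y, rfl⟩
        exact (ψ _).2
      · intro hx
        obtain ⟨y, hy⟩ := QuotientGroup.mk'_surjective (Subgroup.center (SU 3 F q))
          (ψ.symm ⟨x, hx⟩)
        exact ⟨y, by
          change ((ψ (QuotientGroup.mk' (Subgroup.center (SU 3 F q)) y) : V) : G) = x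
          rw [hy, MulEquiv.apply_symm_apply]⟩
    · rw [← h1, suBlock_zero hF, MonoidHom.range_comp]
    · rw [← h2, suBlock_one hF, MonoidHom.range_comp]

/-- The homomorphism from `SU (n + 1)` given by a chain of homomorphisms of `SU 3`. -/
theorem exists_hom_of_chain (hF : Fintype.card F = q ^ 2) (hq : 4 ≤ q) {n : ℕ} {H : Type*}
    [Group H] (ψ : ℕ → (SU 3 F q →* H))
    (hker : ∀ k, k + 3 ≤ n + 3 → (ψ k).ker ≤ Subgroup.center (SU 3 F q))
    (hrange : ∀ k, k + 4 ≤ n + 3 → ((ψ k).comp (emb hF 1 (by omega : 1 + 2 ≤ 3))).range =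
      ((ψ (k + 1)).comp (emb hF 0 (by omega : 0 + 2 ≤ 3))).range)
    (hcomm : ∀ i j a b, i + 3 ≤ n + 3 → j + 3 ≤ n + 3 → ∀ (ha : a + 2 ≤ 3) (hb : b + 2 ≤ 3),
      i + a + 2 ≤ j + b → ∀ x y : SU 2 F q,
      Commute (ψ i (emb hF a ha x)) (ψ j (emb hF b hb y))) :
    ∃ Φ : SU (n + 3) F q →* H, ∀ k, k + 3 ≤ n + 3 → (ψ k).range ≤ Φ.range := by
  obtain ⟨φ, g, hg, hgψ⟩ := exists_system hF ψ (fun k hk => inj_of_ker hF (hker k hk) _)
    (fun k hk => inj_of_ker hF (hker k hk) _) hrange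
    (fun k hk y hy => tor_compat hF (ψ k) (ψ (k + 1)) (inj_of_ker hF (hker k (by omega)) _)
      (inj_of_ker hF (hker (k + 1) (by omega)) _) (hrange k hk)
      (fun x y => hcomm k (k + 1) 0 1 (by omega) (by omega) _ _ (by omega) x y) y hy) hcomm
  obtain ⟨Φ, hΦ⟩ := exists_hom_of_four_le hF hq n hg
  refine ⟨Φ, ?_⟩
  rintro k hk _ ⟨x, rfl⟩
  obtain ⟨τ, d, hd, e⟩ := hgψ k
  obtain ⟨y, rfl⟩ := fr_surjective hF τ d hd x
  refine ⟨emb hF k hk y, ?_⟩
  rw [hΦ, e]
  rfl

end Cfsg.Agent.H433
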