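import Cfsg.Agent.H433.SubEven

/-!
# Subgroups `SU 2` of `SU 3` are stabilisers of vectors of norm one
-/

set_option autoImplicit false

namespace Cfsg.Agent.H433

open Matrix Cfsg
open Cfsg.Agent.LieClassical.HermBasic
open Cfsg.Agent.Phan

variable {F : Type*} [Field F] {q : ℕ} [Fintype F]

/-- An involution of `SU 2` in odd characteristic is `-1`. -/
theorem su2_involution (hF : Fintype.card F = q ^ 2) (h2 : (2 : F) ≠ 0) (k : SU 2 F q)
    (hk : k * k = 1) (hk1 : k ≠ 1) : mat k = -1 := by
  have hm : mat k * mat k = 1 := by rw [← mat_mul, hk, mat_one]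
  have hdet := mat_det k
  rw [Matrix.det_fin_two] at hdet
  have e00 := congrFun (congrFun hm 0) 0
  have e01 := congrFun (congrFun hm 0) 1
  have e10 := congrFun (congrFun hm 1) 0
  have e11 := congrFun (congrFun hm 1) 1
  rw [Matrix.mul_apply, Fin.sum_univ_two] at e00 e01 e10 e11
  rw [Matrix.one_apply_eq] at e00 e11
  rw [Matrix.one_apply_ne (by decide)] at e01 e10
  set a := mat k 0 0
  set b := mat k 0 1
  set c := mat k 1 0
  set d := mat k 1 1
  have htr : a + d ≠ 0 := by
    intro h
    have hd : d = -a := by linear_combination h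
    rw [hd] at hdet
    have : (2 : F) = 0 := by linear_combination -e00 - hdet
    exact h2 this
  have hb : b = 0 := by
    have : b * (a + d) = 0 := by linear_combination e01
    exact (mul_eq_zero.1 this).resolve_right htr
  have hc : c = 0 := by
    have : c * (a + d) = 0 := by linear_combination e10
    exact (mul_eq_zero.1 this).resolve_right htr
  rw [hb, zero_mul, add_zero] at e00
  rw [hb, zero_mul, sub_zero] at hdet
  have had : d = a := by
    have ha0 : a ≠ 0 := by intro h; rw [h, zero_mul] at e00; exact zero_ne_one e00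
    have : a * (d - a) = 0 := by linear_combination hdet - e00
    exact sub_eq_zero.1 ((mul_eq_zero.1 this).resolve_left ha0)
  have ha : a = -1 := by
    have h3 : (a - 1) * (a + 1) = 0 := by linear_combination e00
    rcases mul_eq_zero.1 h3 with h | h
    · exfalso
      apply hk1
      apply mat_inj
      rw [mat_one]
      ext i j
      fin_cases i <;> fin_cases j
      · change a = _
        rw [Matrix.one_apply_eq]; exact sub_eq_zero.1 h
      · change b = _
        rw [hb]; simp
      · change c = _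
        rw [hc]; simp
      · change d = _
        rw [had]
        simpa using sub_eq_zero.1 h
    · linear_combination h
  ext i j
  fin_cases i <;> fin_cases j
  · change a = _
    rw [ha]; simp
  · change b = _
    rw [hb]; simp
  · change c = _
    rw [hc]; simp
  · change d = _
    rw [had, ha]; simp

/-- An involution of `SU 3` in odd characteristic is conjugate to `diag(1,-1,-1)`. -/
theorem su3_involution (hF : Fintype.card F = q ^ 2) (h2 : (2 : F) ≠ 0) (T : SU 3 F q)
    (hT : T * T = 1) (hT1 : T ≠ 1) : ∃ w : Pt 3 F q, T • w = w ∧ ∀ x : Fin 3 → F,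
      mat T *ᵥ x = x → ∃ c : F, x = c • w.val := by
  have hTT : ∀ x, mat T *ᵥ (mat T *ᵥ x) = x := by
    intro x
    rw [Matrix.mulVec_mulVec, ← mat_mul, hT, mat_one, Matrix.one_mulVec]
  -- a fixed vector of nonzero norm
  obtain ⟨v, hv⟩ : ∃ v, hermForm 3 F q (v + mat T *ᵥ v) (v + mat T *ᵥ v) ≠ 0 := by
    by_contra hcon
    push Not at hcon
    -- the fixed space is totally isotropic
    have h3 : ∀ x y, hermForm 3 F q (x + mat T *ᵥ x) (y + mat T *ᵥ y) = 0 := by
      intro x y
      apply eq_zero_of_forall_trace hF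
      intro c
      have h4 := hcon (c • x + y)
      have h5 := hcon (c • x)
      have h6 := hcon y
      have e1 : c • x + y + mat T *ᵥ (c • x + y) = (c • x + mat T *ᵥ (c • x)) +
          (y + mat T *ᵥ y) := by
        rw [Matrix.mulVec_add]; abel
      have key : ∀ X Y : Fin 3 → F, hermForm 3 F q (X + Y) (X + Y) = hermForm 3 F q X X +
          hermForm 3 F q X Y + hermForm 3 F q Y X + hermForm 3 F q Y Y := by
        intro X Y
        rw [herm_add_left, herm_add_right hF, herm_add_right hF]
        ring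
      rw [e1, key, h5, h6] at h4
      have e2 : c • x + mat T *ᵥ (c • x) = c • (x + mat T *ᵥ x) := by
        rw [Matrix.mulVec_smul, smul_add]
      rw [e2, herm_smul_left, herm_swap hF (c • (x + mat T *ᵥ x)) (y + mat T *ᵥ y),
        herm_smul_left] at h4
      linear_combination h4
    have h4 : ∀ x, x + mat T *ᵥ x = 0 := by
      intro x
      apply herm_nondeg hF
      intro y
      have h5 := h3 x y
      rw [herm_add_right hF] at h5
      have h6 : hermForm 3 F q (x + mat T *ᵥ x) (mat T *ᵥ y) =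
          hermForm 3 F q (x + mat T *ᵥ x) y := by
        have h7 := mat_isom T (x + mat T *ᵥ x) y
        rw [Matrix.mulVec_add, hTT, add_comm] at h7
        exact h7
      rw [h6] at h5
      have h8 : (2 : F) * hermForm 3 F q (x + mat T *ᵥ x) y = 0 := by linear_combination h5
      exact (mul_eq_zero.1 h8).resolve_left h2
    have h5 : mat T = -1 := by
      apply Matrix.ext_of_mulVec_single
      intro j
      rw [Matrix.neg_mulVec, Matrix.one_mulVec]
      have := h4 (Pi.single j 1)
      exact (neg_eq_of_add_eq_zero_right this).symm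
    have h6 := mat_det T
    rw [h5, Matrix.det_neg, Matrix.det_one, Fintype.card_fin] at h6
    have : (2 : F) = 0 := by linear_combination -h6
    exact h2 this
  set u := v + mat T *ᵥ v with hu
  have hTu : mat T *ᵥ u = u := by
    rw [hu, Matrix.mulVec_add, hTT, add_comm]
  obtain ⟨μ, hμ0, hμ⟩ := exists_norm_eq_ne hF (herm_self_pow hF u) hv
  have hμq : μ ^ q ≠ 0 := pow_ne_zero _ hμ0
  have hwn : hermForm 3 F q (μ⁻¹ • u) (μ⁻¹ • u) = 1 := by
    rw [herm_smul_left, herm_smul_right, ← hμ, inv_pow]
    field_simp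
  set w : Pt 3 F q := ⟨μ⁻¹ • u, hwn⟩ with hw
  have hTw : T • w = w := by
    apply Pt.ext'
    rw [smul_val]
    change mat T *ᵥ (μ⁻¹ • u) = μ⁻¹ • u
    rw [Matrix.mulVec_smul, hTu]
  refine ⟨w, hTw, ?_⟩
  obtain ⟨g, hg⟩ := exists_su_smul hF (e0 2 F q) w
  obtain ⟨k, hk⟩ := exists_emb_of_fix hF (g⁻¹ * T * g) (by
    rw [mul_smul, mul_smul, hg, hTw, ← hg, inv_smul_smul])
  have hk1 : k ≠ 1 := by
    rintro rfl
    rw [map_one] at hk
    apply hT1
    have : g⁻¹ * T * g = 1 := hk.symm
    calc T = g * (g⁻¹ * T * g) * g⁻¹ := by group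
      _ = 1 := by rw [this]; group
  have hkk : k * k = 1 := by
    apply emb_injective hF 1 (by omega : 1 + 2 ≤ 2 + 1)
    rw [map_mul, hk, map_one]
    calc g⁻¹ * T * g * (g⁻¹ * T * g) = g⁻¹ * (T * T) * g := by group
      _ = 1 := by rw [hT]; group
  have hkm := su2_involution hF h2 k hkk hk1
  intro x hx
  set x' := mat g⁻¹ *ᵥ x with hx'
  have hgx : mat g *ᵥ x' = x := by
    rw [hx', Matrix.mulVec_mulVec, mat_mul_inv, Matrix.one_mulVec]
  have h3 : mat (g⁻¹ * T * g) *ᵥ x' = x' := by
    rw [mat_mul, mat_mul, ← Matrix.mulVec_mulVec, ← Matrix.mulVec_mulVec, hgx, hx, hx']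
  rw [← hk, emb_one_mulVec, hkm, Matrix.neg_mulVec, Matrix.one_mulVec] at h3
  have h4 : ∀ j : Fin 2, x' j.succ = 0 := by
    intro j
    have h5 := congrFun h3 j.succ
    rw [Fin.cons_succ, Pi.neg_apply] at h5
    have h6 : (2 : F) * x' j.succ = 0 := by linear_combination -h5
    exact (mul_eq_zero.1 h6).resolve_left h2
  refine ⟨x' 0, ?_⟩
  have h5 : x' = x' 0 • (e0 2 F q).val := by
    funext i
    refine Fin.cases ?_ (fun i => ?_) i
    · rw [Pi.smul_apply, e0_val, Pi.single_eq_same, smul_eq_mul, mul_one]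
    · rw [Pi.smul_apply, e0_val, Pi.single_eq_of_ne (Fin.succ_ne_zero i), smul_zero]
      exact h4 i
  rw [← hgx, ← hg, smul_val, ← Matrix.mulVec_smul, ← h5]

theorem exists_fixed_odd (hF : Fintype.card F = q ^ 2) (h2 : (2 : F) ≠ 0)
    (ρ : SU 2 F q →* SU 3 F q) (hρ : Function.Injective ρ) (hperf : commutator (SU 2 F q) = ⊤) :
    ∃ w : Pt 3 F q, ∀ x, ρ x • w = w := by
  have hz1 : negOne hF ≠ (1 : SU 2 F q) := by
    intro h
    have h3 := congrArg mat h
    rw [mat_negOne, mat_one] at h3
    have h4 := congrFun (congrFun h3 0) 0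
    simp at h4
    apply h2
    linear_combination -h4
  have hzz : negOne hF * negOne hF = (1 : SU 2 F q) := by
    apply mat_inj
    rw [mat_mul, mat_negOne, mat_one]
    simp
  have hzc : ∀ x : SU 2 F q, negOne hF * x = x * negOne hF := by
    intro x
    apply mat_inj
    rw [mat_mul, mat_mul, mat_negOne]
    simp
  obtain ⟨w, hTw, hw⟩ := su3_involution hF h2 (ρ (negOne hF)) (by rw [← map_mul, hzz, map_one])
    (by
      intro h
      exact hz1 (hρ (by rw [h, map_one])))
  refine ⟨w, ?_⟩
  -- `w` is an eigenvector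
  have hχ : ∀ x, ∃ c : F, mat (ρ x) *ᵥ w.val = c • w.val := by
    intro x
    apply hw
    rw [Matrix.mulVec_mulVec, ← mat_mul, ← map_mul, hzc, map_mul, mat_mul, ← Matrix.mulVec_mulVec]
    have : mat (ρ (negOne hF)) *ᵥ w.val = w.val := congrArg Pt.val hTw
    rw [this]
  -- commutators fix `w`
  have hcom : ∀ x y : SU 2 F q, ρ (x * y) • w = ρ (y * x) • w := by
    intro x y
    obtain ⟨c, hc⟩ := hχ x
    obtain ⟨d, hd⟩ := hχ y
    apply Pt.ext'
    rw [smul_val, smul_val, map_mul, map_mul, mat_mul, mat_mul, ← Matrix.mulVec_mulVec,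
      ← Matrix.mulVec_mulVec, hc, hd, Matrix.mulVec_smul, Matrix.mulVec_smul, hc, hd,
      smul_smul, smul_smul, mul_comm]
  have hle : commutator (SU 2 F q) ≤
      Subgroup.comap ρ (MulAction.stabilizer (SU 3 F q) w) := by
    rw [commutator_def, Subgroup.commutator_le]
    intro x _ y _
    rw [Subgroup.mem_comap, MulAction.mem_stabilizer_iff, commutatorElement_def]
    have h3 := hcom (x * y) (x⁻¹ * y⁻¹)
    have h4 : x * y * x⁻¹ * y⁻¹ = x * y * (x⁻¹ * y⁻¹) := by group
    have h5 := hcom x⁻¹ y⁻¹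
    have h6 : ρ (x⁻¹ * y⁻¹) • w = ρ ((x * y)⁻¹) • w := by
      rw [h5, _root_.mul_inv_rev]
    rw [h4, map_mul, mul_smul, h6, ← mul_smul, ← map_mul, mul_inv_cancel, map_one, one_smul]
  intro x
  have hx : x ∈ commutator (SU 2 F q) := by rw [hperf]; trivial
  have := hle hx
  rwa [Subgroup.mem_comap, MulAction.mem_stabilizer_iff] at this

/-- `SU 2` is perfect for `q ≥ 4`. -/
theorem commutator_su2 (hF : Fintype.card F = q ^ 2) (hq : 4 ≤ q) :
    commutator (SU 2 F q) = ⊤ := by
  classical
  obtain ⟨P, Q, hPQ, hQP, θ, hθ⟩ := exists_model hF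
  have : Fintype (fixedField hF) := Fintype.ofFinite _
  have hcard : 3 < Fintype.card (fixedField hF) := by
    rw [← Nat.card_eq_fintype_card, card_fixedField]
    omega
  have h1 := TwoFusion.SLTwoFacts.commutator_eq_top hcard
  have h2 := Subgroup.map_commutator (⊤ : Subgroup (SpecialLinearGroup (Fin 2) (fixedField hF))) ⊤
    θ.toMonoidHom
  rw [← commutator_def, h1, Subgroup.map_top_of_surjective θ.toMonoidHom θ.surjective,
    ← commutator_def] at h2
  exact h2.symm

/-- **Every `SU 2` in `SU 3` fixes a vector of norm one.** -/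
theorem exists_fixed (hF : Fintype.card F = q ^ 2) (hq : 4 ≤ q)
    (ρ : SU 2 F q →* SU 3 F q) (hρ : Function.Injective ρ) :
    ∃ w : Pt 3 F q, ∀ x, ρ x • w = w := by
  classical
  by_cases h2 : (2 : F) = 0
  · obtain ⟨P, Q, hPQ, hQP, θ, hθ⟩ := exists_model hF
    have : Fintype (fixedField hF) := Fintype.ofFinite _
    have hK2 : (2 : fixedField hF) = 0 := by
      apply Subtype.ext
      exact h2
    obtain ⟨w, hw⟩ := exists_fixed_even hF h2 hK2 (ρ.comp θ.toMonoidHom)
      (hρ.comp θ.injective)
    refine ⟨w, fun x => ?_⟩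
    have := hw (θ.symm x)
    rw [MonoidHom.comp_apply] at this
    change ρ (θ (θ.symm x)) • w = w at this
    rwa [MulEquiv.apply_symm_apply] at this
  · exact exists_fixed_odd hF h2 ρ hρ (commutator_su2 hF hq)

/-- The stabiliser of a vector has the order of `SU 2`. -/
theorem card_stabilizer (hF : Fintype.card F = q ^ 2) (w : Pt 3 F q) :
    Nat.card (MulAction.stabilizer (SU 3 F q) w) = Nat.card (SU 2 F q) := by
  obtain ⟨g, rfl⟩ := exists_su_smul hF (e0 2 F q) w
  have h1 : Nat.card (MulAction.stabilizer (SU 3 F q) (g • e0 2 F q)) =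
      Nat.card (MulAction.stabilizer (SU 3 F q) (e0 2 F q)) :=
    Nat.card_congr (MulAction.stabilizerEquivStabilizer rfl).symm.toEquiv
  rw [h1]
  have h2 : MulAction.stabilizer (SU 3 F q) (e0 2 F q) =
      (emb hF 1 (by omega : 1 + 2 ≤ 2 + 1) : SU 2 F q →* SU 3 F q).range := by
    ext x
    rw [MulAction.mem_stabilizer_iff]
    constructor
    · intro hx
      obtain ⟨k, hk⟩ := exists_emb_of_fix hF x hx
      exact ⟨k, hk⟩
    · rintro ⟨k, rfl⟩
      exact emb_one_e0 hF k
  rw [h2]
  exact Nat.card_congr (MonoidHom.ofInjective (emb_injective hF _ _)).symm.toEquiv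

/-- An injective image of `SU 2` fixing `w` is the stabiliser of `w`. -/
theorem range_eq_stabilizer (hF : Fintype.card F = q ^ 2) (ρ : SU 2 F q →* SU 3 F q)
    (hρ : Function.Injective ρ) (w : Pt 3 F q) (hw : ∀ x, ρ x • w = w) :
    ρ.range = MulAction.stabilizer (SU 3 F q) w := by
  have := finite_SU (F := F) (q := q) 3
  apply Subgroup.eq_of_le_of_card_ge
  · rintro _ ⟨x, rfl⟩
    exact MulAction.mem_stabilizer_iff.2 (hw x)
  · rw [card_stabilizer hF]
    exact le_of_eq (Nat.card_congr (MonoidHom.ofInjective hρ).toEquiv)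

end Cfsg.Agent.H433
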